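import Cfsg.Agent.H562.OreM.QVal
import Cfsg.Agent.H848.Dual

/-!
# S5719, row M (helper642): large subgroups of `Λ / 2Λ` contain vectors of type 2

`exists_two` : a subgroup of index at most `2 ^ 11` contains a vector of type 2 (characters of `Λ / 2Λ` on the 98280
vectors of type 2: values `98280`, `4072`, `-24`, `-24`).
-/

set_option autoImplicit false

namespace Cfsg.Agent.H642.IF.LamTwo

open Cfsg Cfsg.Spor
open Cfsg.Agent.H847.Co1Small (sg sg_zero sg_one sg_add zcases)
open Cfsg.Agent.H847.QTrace Cfsg.Agent.H847.QDeg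
open Cfsg.Agent.MonsterU.Lam2
open Cfsg.Agent.H562.OreM.QVal Cfsg.Agent.H848.Dual
open Cfsg.Agent.ConwayFacts.NormL2 (ncard_two ncard_three ncard_four isType_f0 ne_zero_of_type)

attribute [local instance] Cfsg.Agent.H847.QTrace.fintypeL2

theorem S_two_of_three {x : L2} (hx : IsType 3 x) : S 2 x = -24 := by
  have h1 : ∑ v ∈ Tn 2, S 3 v = ∑ w ∈ Tn 3, S 2 w := by
    unfold S
    rw [Finset.sum_comm]
    exact Finset.sum_congr rfl fun w _ => Finset.sum_congr rfl fun v _ => by rw [bf_comm]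
  rw [sum_const 2 (f := S 3) (c := -2048) (fun v hv => S_three_of_two hv),
    sum_const 3 (f := S 2) (c := S 2 x) (fun v hv => S_eq 2 (Or.inr (Or.inl rfl)) hx hv), card_two, card_three] at h1
  linear_combination (-1 / 8386560 : ℂ) * h1

theorem S_two_zero : S 2 0 = 98280 := by
  unfold S
  rw [sum_const 2 (c := 1) (fun v _ => by rw [bf_zero_right, sg_zero]), card_two, mul_one]

/-- the values are integers `≥ -24` -/
theorem S_two_int {x : L2} (hx : x ≠ 0) : ∃ k : ℤ, -24 ≤ k ∧ S 2 x = (k : ℂ) := by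
  rcases type_cases x with h | h | h | h
  · exact absurd h hx
  · exact ⟨4072, by norm_num, by rw [S_two_of_two h]; norm_num⟩
  · exact ⟨-24, le_rfl, by rw [S_two_of_three h]; norm_num⟩
  · exact ⟨-24, le_rfl, by rw [S_two_of_four h]; norm_num⟩

open Classical in
/-- the elements of a subgroup -/
noncomputable def fs (W : AddSubgroup L2) : Finset L2 := Finset.univ.filter (· ∈ W)

theorem mem_fs {W : AddSubgroup L2} {x : L2} : x ∈ fs W ↔ x ∈ W := by
  classical
  simp [fs]

theorem card_fs (W : AddSubgroup L2) : (fs W).card = Nat.card W :=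
  (Nat.subtype_card (fs W) fun _ => mem_fs).symm

theorem sum_eq_zero {W : AddSubgroup L2} {v : L2} (hv : v ∉ perp W) : ∑ w ∈ fs W, sg (bf v w) = 0 := by
  have h1 : ∃ u ∈ W, bf v u ≠ 0 := by
    by_contra hcon
    push Not at hcon
    exact hv hcon
  obtain ⟨u, hu, hne⟩ := h1
  have h2 : bf v u = 1 := (zcases _).resolve_left hne
  have h3 : ∑ w ∈ fs W, sg (bf v w) = ∑ w ∈ fs W, sg (bf v (w + u)) := by
    refine Finset.sum_bij' (fun w _ => w - u) (fun w _ => w + u) (fun w hw => ?_) (fun w hw => ?_) (fun w _ => ?_)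
      (fun w _ => ?_) (fun w _ => ?_)
    · exact mem_fs.2 (W.sub_mem (mem_fs.1 hw) hu)
    · exact mem_fs.2 (W.add_mem (mem_fs.1 hw) hu)
    · exact sub_add_cancel w u
    · exact add_sub_cancel_right w u
    · rw [sub_add_cancel]
  have h4 : ∑ w ∈ fs W, sg (bf v (w + u)) = -∑ w ∈ fs W, sg (bf v w) := by
    rw [← Finset.sum_neg_distrib]
    refine Finset.sum_congr rfl fun w _ => ?_
    rw [bf_add_right, sg_add, h2, sg_one, mul_neg_one]
  rw [h4] at h3
  linear_combination (1 / 2 : ℂ) * h3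

open Classical in
/-- **A subgroup of index at most `2 ^ 11` contains a vector of type 2.** -/
theorem exists_two (V : AddSubgroup L2) (h : V.index ≤ 2 ^ 11) : ∃ v ∈ V, IsType 2 v := by
  by_contra hcon
  push Not at hcon
  set W := perp V with hW
  have hc : Nat.card W ≤ 2 ^ 11 := by
    have h1 := card_perp V
    have h2 := V.card_mul_index
    rw [card_L2, ← h1] at h2
    have h3 : 0 < Nat.card V := by
      rcases Nat.eq_zero_or_pos (Nat.card V) with h4 | h4
      · rw [h4, mul_zero] at h1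
        norm_num at h1
      · exact h4
    have h5 : V.index = Nat.card (perp V) := by
      rw [mul_comm (Nat.card (perp V))] at h2
      exact Nat.eq_of_mul_eq_mul_left h3 h2
    rw [hW, ← h5]
    exact h
  have h1 : ∑ w ∈ fs W, S 2 w = 0 := by
    unfold S
    rw [Finset.sum_comm]
    refine Finset.sum_eq_zero fun v hv => ?_
    apply sum_eq_zero
    rw [hW, perp_perp]
    exact fun h5 => hcon v h5 (mem_Tn.1 hv)
  have h2 : ∑ w ∈ fs W, S 2 w = S 2 0 + ∑ w ∈ (fs W).erase 0, S 2 w := by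
    rw [Finset.add_sum_erase]
    exact mem_fs.2 W.zero_mem
  have h3 : ∀ w ∈ (fs W).erase 0, ∃ k : ℤ, -24 ≤ k ∧ S 2 w = (k : ℂ) := fun w hw =>
    S_two_int (Finset.ne_of_mem_erase hw)
  choose! k hk1 hk2 using h3
  rw [h1, S_two_zero, Finset.sum_congr rfl hk2] at h2
  have h4 : (0 : ℤ) = 98280 + ∑ w ∈ (fs W).erase 0, k w := by exact_mod_cast h2
  have h5 : ∑ w ∈ (fs W).erase 0, (-24 : ℤ) ≤ ∑ w ∈ (fs W).erase 0, k w := Finset.sum_le_sum hk1
  rw [Finset.sum_const, Finset.card_erase_of_mem (mem_fs.2 W.zero_mem), card_fs, nsmul_eq_mul] at h5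
  have h6 : ((Nat.card W - 1 : ℕ) : ℤ) ≤ 2047 := by
    have : Nat.card W - 1 ≤ 2047 := by omega
    exact_mod_cast this
  nlinarith

end Cfsg.Agent.H642.IF.LamTwo
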